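import Cfsg.Agent.H890.QON.Sieve
import Cfsg.Agent.Classification.Order360Iso

/-!
# The O'Nan group: commutators with a member of order divisible by three (helper890)

`good` : every element `g ≠ 1` of order prime to 3 is `x k x⁻¹ k⁻¹` with `3 ∣ orderOf x`:
* `g` commutes with an element of order 3: `g` lies in the `A6` of its centralizer and is a product of two elements of
  order 3;
* `|C(g)| ≤ 512`: `H890/QON/Sieve`;
* otherwise `g` has order 7 and is normalised by an element of order divisible by 3.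
-/

set_option autoImplicit false

namespace Cfsg.Agent.H890.QON

open Subgroup Cfsg Equiv

/-! ### The alternating group of degree six -/

/-- elements of order three -/
def L12 : List (Perm (Fin 6)) := [
  swap 3 4 * swap 4 5,
  swap 3 5 * swap 5 4,
  swap 0 1 * swap 1 2,
  swap 0 1 * swap 1 2 * (swap 3 4 * swap 4 5),
  swap 0 1 * swap 1 2 * (swap 3 5 * swap 5 4),
  swap 0 2 * swap 2 1,
  swap 1 2 * swap 2 3,
  swap 0 1 * swap 1 4,
  swap 0 5 * swap 5 2,
  swap 0 1 * swap 1 4 * (swap 2 3 * swap 3 5),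
  swap 0 2 * swap 2 5 * (swap 1 4 * swap 4 3),
  swap 2 3 * swap 3 4]

theorem L12_ok : (L12.all fun a => decide (a * a * a = 1) && decide (Perm.sign a = 1)) = true := by decide +kernel

theorem L12_one : ∀ g : Perm (Fin 6), Perm.sign g = 1 → g ≠ 1 → g * g * g ≠ 1 →
    (L12.any fun a => decide ((a⁻¹ * g) * (a⁻¹ * g) * (a⁻¹ * g) = 1)) = true := by decide +kernel

theorem alt6 (g : alternatingGroup (Fin 6)) (h1 : g ≠ 1) (h3 : g * g * g ≠ 1) :
    ∃ a b : alternatingGroup (Fin 6), orderOf a = 3 ∧ orderOf b = 3 ∧ g = a * b := by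
  have h3F : Fact (Nat.Prime 3) := ⟨Nat.prime_three⟩
  have hs : Perm.sign (g : Perm (Fin 6)) = 1 := Perm.mem_alternatingGroup.1 g.2
  obtain ⟨a, ha, hb⟩ := List.any_eq_true.1 (L12_one g hs (fun h => h1 (Subtype.ext h)) (fun h => h3 (Subtype.ext h)))
  have hb := of_decide_eq_true hb
  have ha2 := List.all_eq_true.1 L12_ok a ha
  rw [Bool.and_eq_true] at ha2
  have ha3 := of_decide_eq_true ha2.1
  have hsa := of_decide_eq_true ha2.2
  have haA : a ∈ alternatingGroup (Fin 6) := Perm.mem_alternatingGroup.2 hsa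
  let A : alternatingGroup (Fin 6) := ⟨a, haA⟩
  have hA3 : A * A * A = 1 := Subtype.ext ha3
  have hB3 : (A⁻¹ * g) * (A⁻¹ * g) * (A⁻¹ * g) = 1 := Subtype.ext hb
  refine ⟨A, A⁻¹ * g, orderOf_eq_prime (by rw [pow_succ, pow_two, hA3]) ?_,
    orderOf_eq_prime (by rw [pow_succ, pow_two, hB3]) ?_, by group⟩
  · intro h
    rw [h, inv_one, one_mul] at hB3
    exact h3 hB3
  · intro h
    have h4 : g = A := (inv_mul_eq_one.1 h).symm
    rw [h4] at h3
    exact h3 hA3

theorem simple360 {T : Type*} [Group T] [Finite T] [IsSimpleGroup T] (hT : Nat.card T = 360) {g : T} (h1 : g ≠ 1)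
    (h3 : g * g * g ≠ 1) : ∃ a b : T, orderOf a = 3 ∧ orderOf b = 3 ∧ g = a * b := by
  obtain ⟨e⟩ := Classification.Order360Iso.nonempty_mulEquiv_alternating hT
  obtain ⟨a, b, ha, hb, hab⟩ := alt6 (e g) (fun h => h1 ((map_eq_one_iff e e.injective).1 h)) (fun h => h3 (by
    rw [← map_mul, ← map_mul] at h
    exact (map_eq_one_iff e e.injective).1 h))
  refine ⟨e.symm a, e.symm b, ?_, ?_, ?_⟩
  · rw [← ha]; exact orderOf_injective e.symm.toMonoidHom e.symm.injective a
  · rw [← hb]; exact orderOf_injective e.symm.toMonoidHom e.symm.injective b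
  · rw [← map_mul, ← hab, e.symm_apply_apply]

/-! ### The O'Nan group -/

open Cfsg.Spor (ON)
open Cfsg.Spor.ON (Gen)
open Cfsg.Agent.SporadicB.ON45Word (on)
open Cfsg.Agent.KFacts.ON.Cent (hON finite_ON card_K0)
open Cfsg.Agent.KFacts.ON.Words (v vv)
open Cfsg.Agent.KFacts.ON.Struct
open Cfsg.Agent.ONType.TupK (K0)
open Cfsg.Agent.H474.ONC
open Cfsg.Agent.H210.On7 (card_cent_three card_cent_nineteen thirtyone exists_three exists_threeData)
open Cfsg.Agent.H65.Ore (Prd card_centralizer_pow_le)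

/-- `g` is a commutator whose first member has order divisible by three -/
def Good (g : ON) : Prop := ∃ x k : ON, 3 ∣ orderOf x ∧ g = x * k * x⁻¹ * k⁻¹

theorem Good.of_conj {g : ON} (c : ON) (h : Good (c * g * c⁻¹)) : Good g := by
  obtain ⟨x, k, hx, hg⟩ := h
  refine ⟨c⁻¹ * x * c, c⁻¹ * k * c, ?_, ?_⟩
  · have h1 : IsConj x (c⁻¹ * x * c) := isConj_iff.2 ⟨c⁻¹, by group⟩
    have h2 : orderOf (c⁻¹ * x * c) = orderOf x := by
      have := (MulAut.conj c⁻¹).orderOf_eq x
      rw [← this]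
      congr 1
      change _ = c⁻¹ * x * c⁻¹⁻¹
      rw [inv_inv]
    rwa [h2]
  · have h1 : g = c⁻¹ * (c * g * c⁻¹) * c := by group
    rw [h1, hg]; group

/-- a product of two elements of order three -/
theorem good_mul {a b : ON} (ha : orderOf a = 3) (hb : orderOf b = 3) : Good (a * b) := by
  obtain ⟨z, -, hz, -⟩ := exists_three
  obtain ⟨k, hk⟩ := isConj_iff.1 ((hz a⁻¹ (by rw [orderOf_inv, ha])).trans (hz b hb).symm)
  exact ⟨a, k, by rw [ha], by rw [← hk]; group⟩

theorem mem_sup_prod {G : Type*} [Group G] {P L : Subgroup G} (h : ∀ a ∈ P, ∀ b ∈ L, a * b = b * a) {g : G}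
    (hg : g ∈ P ⊔ L) : ∃ a ∈ P, ∃ b ∈ L, g = a * b := by
  let φ : P × L →* G := MonoidHom.noncommCoprod P.subtype L.subtype (fun a b => h a a.2 b b.2)
  have hr : φ.range = P ⊔ L := by
    refine (MonoidHom.noncommCoprod_range P.subtype L.subtype (fun a b => h a a.2 b b.2)).trans ?_
    rw [range_subtype, range_subtype]
  rw [← hr] at hg
  obtain ⟨⟨a, b⟩, hab⟩ := hg
  exact ⟨a, a.2, b, b.2, hab.symm⟩

/-- the elements of order prime to three commuting with an element of order three -/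
theorem good_three {g s : ON} (hs : orderOf s = 3) (hsg : s * g = g * s) (h1 : g ≠ 1) (h3 : ¬ 3 ∣ orderOf g) :
    Good g := by
  have hfin := finite_ON
  obtain ⟨x, P, L, s0, h⟩ := exists_threeData
  obtain ⟨z, -, hz, -⟩ := exists_three
  obtain ⟨c, hc⟩ := isConj_iff.1 ((hz s hs).trans (hz x h.ox).symm)
  apply Good.of_conj c
  obtain ⟨g', hg'⟩ : ∃ g', g' = c * g * c⁻¹ := ⟨_, rfl⟩
  rw [← hg']
  have ho : orderOf g' = orderOf g := by
    rw [hg']; exact (MulAut.conj c).orderOf_eq g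
  have h1' : g' ≠ 1 := fun e => h1 (by
    have : g = c⁻¹ * g' * c := by rw [hg']; group
    rw [this, e]; group)
  rw [← ho] at h3
  have hmem : g' ∈ P ⊔ L := by
    rw [← h.cent, mem_cent, hg', ← hc]
    calc c * g * c⁻¹ * (c * s * c⁻¹) = c * (g * s) * c⁻¹ := by group
      _ = c * (s * g) * c⁻¹ := by rw [hsg]
      _ = c * s * c⁻¹ * (c * g * c⁻¹) := by group
  obtain ⟨p, hp, l, hl, hpl⟩ := mem_sup_prod h.comm hmem
  have hcomm : Commute p l := h.comm p hp l hl
  -- `g'` is a power of its cube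
  have hcop : Nat.Coprime 3 (orderOf g') := (Nat.Prime.coprime_iff_not_dvd Nat.prime_three).2 h3
  obtain ⟨m, hm⟩ := Nat.exists_mul_mod_eq_one_of_coprime hcop (by
    have h2 : 0 < orderOf g' := orderOf_pos g'
    rcases Nat.lt_or_ge 1 (orderOf g') with h5 | h5
    · exact h5
    · exact absurd (orderOf_eq_one_iff.1 (by omega)) h1')
  have hgm : g' ^ (3 * m) = g' := by
    rw [← pow_mod_orderOf, hm.2, pow_one]
  have hL : g' ∈ L := by
    rw [← hgm, pow_mul, hpl, hcomm.mul_pow, h.expP p hp, one_mul, ← pow_mul]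
    exact L.pow_mem hl _
  have hsim := h.simple
  obtain ⟨a, b, ha, hb, hab⟩ := simple360 h.cardL (g := (⟨g', hL⟩ : L)) (fun e => h1' (congrArg Subtype.val e))
    (fun e => by
      have e1 : g' * g' * g' = 1 := congrArg Subtype.val e
      have e2 : orderOf g' ∣ 3 := orderOf_dvd_of_pow_eq_one (by rw [pow_succ, pow_two, e1])
      rcases (Nat.dvd_prime Nat.prime_three).1 e2 with e3 | e3
      · exact h1' (orderOf_eq_one_iff.1 e3)
      · exact h3 (by rw [e3]))
  have hab' : g' = (a : ON) * b := congrArg Subtype.val hab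
  rw [hab']
  exact good_mul (by rw [orderOf_coe, ha]) (by rw [orderOf_coe, hb])

theorem good_small {g : ON} (hg : Nat.card (centralizer ({g} : Set ON)) ≤ 512) : Good g := by
  have hfin := finite_ON
  have hs : IsSimpleGroup ON := hON.1
  obtain ⟨Δ⟩ := H210.On7.exists_data
  obtain ⟨a, b, hab⟩ := prd15 H535.Ore.ON.not_comm Δ hg
  refine ⟨a * Δ.x * a⁻¹, b * a⁻¹, ?_, by rw [hab]; group⟩
  have h1 : orderOf (a * Δ.x * a⁻¹) = 15 := by
    rw [← Δ.ox]; exact (MulAut.conj a).orderOf_eq Δ.x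
  rw [h1]; norm_num

/-! ### Elements commuting with an element of order 5 or 7 and an involution -/

theorem x1_comm {i : ℕ} : H210.On7.x1 * v ^ i = v ^ i * H210.On7.x1 :=
  ((show Commute v H210.On7.x1 from H210.On7.vx1).symm.pow_right i).eq

theorem order_x1 : orderOf H210.On7.x1 = 3 := by
  have h3F : Fact (Nat.Prime 3) := ⟨Nat.prime_three⟩
  exact orderOf_eq_prime H210.On7.x1_pow H210.On7.x1_ne

theorem card_le_of_loc {p : ℕ} {u g : ON} (h : Loc p u v) (hg : ∀ c, c * g = g * c → c * u = u * c ∧ c * v ^ 2 = v ^ 2 * c) :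
    Nat.card (centralizer ({g} : Set ON)) ≤ p * 4 := by
  have hfin := finite_ON
  have h1 : ∀ c : centralizer ({g} : Set ON), ∃ q : zpowers u × zpowers v, (q.1 : ON) * q.2 = c := by
    intro c
    obtain ⟨hc1, hc2⟩ := hg c (mem_cent.1 c.2)
    obtain ⟨i, j, hij⟩ := h.cent c hc1 hc2
    exact ⟨(⟨u ^ i, npow_mem_zpowers u i⟩, ⟨v ^ j, npow_mem_zpowers v j⟩), hij.symm⟩
  choose f hf using h1
  have hinj : Function.Injective f := by
    intro c d hcd
    apply Subtype.ext
    rw [← hf c, ← hf d, hcd]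
  have h2 := Nat.card_le_card_of_injective f hinj
  rwa [Nat.card_prod, Nat.card_zpowers, Nat.card_zpowers, h.ox, h.ov] at h2

/-- `g` of even order commuting with an element of order 5 or 7 -/
theorem good_loc {p : ℕ} {u g : ON} (h : Loc p u v) (hp : p ≤ 128) (hgu : g * u = u * g) (hgf : g * v ^ 2 = v ^ 2 * g)
    {k : ℕ} (hk : g ^ k = v ^ 2) (h1 : g ≠ 1) (h3 : ¬ 3 ∣ orderOf g) : Good g := by
  have hfin := finite_ON
  obtain ⟨i, j, hij⟩ := h.cent g hgu hgf
  by_cases hi : p ∣ i
  · have hui : u ^ i = 1 := orderOf_dvd_iff_pow_eq_one.1 (by rw [h.ox]; exact hi)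
    rw [hui, one_mul] at hij
    refine good_three order_x1 ?_ h1 h3
    rw [hij]
    exact x1_comm
  · apply good_small
    refine (card_le_of_loc h ?_).trans (by omega)
    intro c hc
    have hc : Commute c g := hc
    refine ⟨?_, ?_⟩
    · -- `u` is a power of `g ^ 4`
      have h4 : g ^ 4 = u ^ (4 * i) := by
        rw [hij, (h.commute i j).mul_pow, ← pow_mul, ← pow_mul, mul_comm j 4, pow_mul v, h.v4, one_pow, mul_one,
          mul_comm i 4]
      have hcop : Nat.Coprime (4 * i) p := by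
        apply Nat.Coprime.mul_left
        · exact Nat.Coprime.pow_left 2 ((Nat.coprime_primes Nat.prime_two h.hp).2 (Ne.symm h.hp2))
        · exact ((Nat.Prime.coprime_iff_not_dvd h.hp).2 hi).symm
      obtain ⟨m, hm⟩ := Nat.exists_mul_mod_eq_one_of_coprime hcop h.hp.one_lt
      have hu : u = g ^ (4 * m) := by
        rw [pow_mul, h4, ← pow_mul]
        conv_rhs => rw [← pow_mod_orderOf, h.ox, hm.2, pow_one]
      rw [hu]
      exact (hc.pow_right _).eq
    · rw [← hk]
      exact (hc.pow_right _).eq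

/-- an element of order 7 commuting with an involution -/
theorem good_seven {g : ON} (hg : orderOf g = 7) (hgK : g ∈ K0) : Good g := by
  have hfin := finite_ON
  have h7 : g ^ 7 = 1 := by rw [← hg, pow_orderOf_eq_one]
  have h1 : g ≠ 1 := by
    rintro rfl
    rw [orderOf_one] at hg
    norm_num at hg
  obtain ⟨y, -, hy⟩ := CpAutON.Seven.exists_cube h7 h1 hgK
  obtain ⟨s, hs⟩ : ∃ s, s = y * y := ⟨_, rfl⟩
  have hsg : s * g * s⁻¹ = g ^ 2 := by
    calc s * g * s⁻¹ = y * (y * g * y⁻¹) * y⁻¹ := by rw [hs]; group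
      _ = y * g ^ 3 * y⁻¹ := by rw [hy]
      _ = (y * g * y⁻¹) ^ 3 := conj_pow.symm
      _ = g ^ 7 * g ^ 2 := by rw [hy, ← pow_mul, ← pow_add]
      _ = g ^ 2 := by rw [h7, one_mul]
  have hn : ∀ n : ℕ, s ^ n * g * (s ^ n)⁻¹ = g ^ 2 ^ n := by
    intro n
    induction n with
    | zero => simp
    | succ n ih =>
      calc s ^ (n + 1) * g * (s ^ (n + 1))⁻¹ = s * (s ^ n * g * (s ^ n)⁻¹) * s⁻¹ := by rw [pow_succ']; group
        _ = (s * g * s⁻¹) ^ 2 ^ n := by rw [ih, conj_pow]
        _ = g ^ 2 ^ (n + 1) := by rw [hsg, ← pow_mul, ← pow_succ']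
  refine ⟨s, g, ?_, ?_⟩
  · have h2 := hn (orderOf s)
    rw [pow_orderOf_eq_one, one_mul, inv_one, mul_one] at h2
    have h3 : g ^ 1 = g ^ 2 ^ orderOf s := by rw [pow_one]; exact h2
    rw [pow_inj_mod, hg] at h3
    -- `2 ^ n = 1 (7)`
    obtain ⟨q, r, hr, hqr⟩ : ∃ q r, r < 3 ∧ orderOf s = 3 * q + r :=
      ⟨orderOf s / 3, orderOf s % 3, Nat.mod_lt _ (by norm_num), by omega⟩
    rw [hqr, pow_add, pow_mul, Nat.mul_mod, Nat.pow_mod] at h3
    norm_num at h3
    interval_cases r
    · exact ⟨q, by rw [hqr]; ring⟩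
    · norm_num at h3
    · norm_num at h3
  · rw [hsg]
    rw [pow_two, mul_assoc, mul_inv_cancel, mul_one]

/-! ### The cases -/

theorem small_prime {g : ON} {p : ℕ} (hp : p.Prime) (h1 : g ≠ 1)
    (hc : ∀ y : ON, orderOf y = p → Nat.card (centralizer ({y} : Set ON)) = p)
    (hd : p ∣ Nat.card (centralizer ({g} : Set ON))) : Nat.card (centralizer ({g} : Set ON)) = p := by
  have hfin := finite_ON
  obtain ⟨u, hu, hug⟩ := exists_comm hp hd
  apply hc
  have h2 := dvd_cent hug.symm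
  rw [hc u hu] at h2
  rcases (Nat.dvd_prime hp).1 h2 with h3 | h3
  · exact absurd (orderOf_eq_one_iff.1 h3) h1
  · exact h3

/-- powers of two and seven -/
theorem card_shape {g : ON} (h3 : ¬ 3 ∣ Nat.card (centralizer ({g} : Set ON)))
    (h5 : ¬ 5 ∣ Nat.card (centralizer ({g} : Set ON))) (h11 : ¬ 11 ∣ Nat.card (centralizer ({g} : Set ON)))
    (h19 : ¬ 19 ∣ Nat.card (centralizer ({g} : Set ON))) (h31 : ¬ 31 ∣ Nat.card (centralizer ({g} : Set ON))) :
    ∃ a d : ℕ, a ≤ 9 ∧ d ≤ 3 ∧ Nat.card (centralizer ({g} : Set ON)) = 2 ^ a * 7 ^ d := by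
  obtain ⟨a, b, c, d, e, f, k, ha, hb, hc, hd, he, hf, hk, hs⟩ := shape (cent_dvd g)
  rw [hs] at h3 h5 h11 h19 h31
  have key : ∀ {q e m : ℕ}, ¬ q ∣ q ^ e * m → e = 0 := by
    intro q e m h
    by_contra h0
    exact h ((dvd_pow_self q h0).mul_right m)
  have hb0 : b = 0 := by
    apply key (q := 3) (m := 2 ^ a * (5 ^ c * (7 ^ d * (11 ^ e * (19 ^ f * 31 ^ k)))))
    intro h; exact h3 (by rwa [mul_left_comm] at h)
  have hc0 : c = 0 := by
    apply key (q := 5) (m := 2 ^ a * (3 ^ b * (7 ^ d * (11 ^ e * (19 ^ f * 31 ^ k)))))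
    intro h; apply h5; convert h using 1; ring
  have he0 : e = 0 := by
    apply key (q := 11) (m := 2 ^ a * (3 ^ b * (5 ^ c * (7 ^ d * (19 ^ f * 31 ^ k)))))
    intro h; apply h11; convert h using 1; ring
  have hf0 : f = 0 := by
    apply key (q := 19) (m := 2 ^ a * (3 ^ b * (5 ^ c * (7 ^ d * (11 ^ e * 31 ^ k)))))
    intro h; apply h19; convert h using 1; ring
  have hk0 : k = 0 := by
    apply key (q := 31) (m := 2 ^ a * (3 ^ b * (5 ^ c * (7 ^ d * (11 ^ e * 19 ^ f)))))
    intro h; apply h31; convert h using 1; ring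
  subst hb0 hc0 he0 hf0 hk0
  exact ⟨a, d, ha, hd, by rw [hs]; ring⟩

/-- conjugation of an involution to `f` -/
theorem exists_conj_f {t : ON} (ht : orderOf t = 2) : ∃ c : ON, c * t * c⁻¹ = on .f := by
  have h1 : t * t = 1 := by rw [← pow_two, ← ht, pow_orderOf_eq_one]
  have h2 : t ≠ 1 := by
    rintro rfl
    rw [orderOf_one] at ht
    norm_num at ht
  exact isConj_iff.1 (KFacts.ON.OneClass.one_class h1 h2)

theorem conj_comm {c x y : ON} (h : x * y = y * x) : (c * x * c⁻¹) * (c * y * c⁻¹) = (c * y * c⁻¹) * (c * x * c⁻¹) := by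
  calc (c * x * c⁻¹) * (c * y * c⁻¹) = c * (x * y) * c⁻¹ := by group
    _ = c * (y * x) * c⁻¹ := by rw [h]
    _ = (c * y * c⁻¹) * (c * x * c⁻¹) := by group

theorem order_conj (c x : ON) : orderOf (c * x * c⁻¹) = orderOf x := (MulAut.conj c).orderOf_eq x

theorem card_conj (c x : ON) : Nat.card (centralizer ({c * x * c⁻¹} : Set ON)) = Nat.card (centralizer ({x} : Set ON)) :=
  Blocks.SylowIn.card_centralizer_of_isConj (isConj_iff.2 ⟨c, rfl⟩)

/-- **Every element `g ≠ 1` of order prime to three is a commutator whose first member has order divisible by three.** -/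
theorem good {g : ON} (h1 : g ≠ 1) (h3 : ¬ 3 ∣ orderOf g) : Good g := by
  have hfin := finite_ON
  by_cases c3 : 3 ∣ Nat.card (centralizer ({g} : Set ON))
  · obtain ⟨s, hs, hsg⟩ := exists_comm Nat.prime_three c3
    exact good_three hs hsg h1 h3
  by_cases c11 : 11 ∣ Nat.card (centralizer ({g} : Set ON))
  · apply good_small
    rw [small_prime (by norm_num) h1 (fun _ h => card_cent_eleven h) c11]; norm_num
  by_cases c19 : 19 ∣ Nat.card (centralizer ({g} : Set ON))
  · apply good_small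
    rw [small_prime (by norm_num) h1 (fun _ h => card_cent_nineteen h) c19]; norm_num
  by_cases c31 : 31 ∣ Nat.card (centralizer ({g} : Set ON))
  · apply good_small
    rw [small_prime (by norm_num) h1 (fun _ h => (thirtyone h).1) c31]; norm_num
  by_cases h2 : 2 ∣ orderOf g
  · -- even order
    obtain ⟨k, hk⟩ : ∃ k, orderOf (g ^ k) = 2 := ⟨orderOf g / 2, orderOf_pow_orderOf_div (orderOf_pos g).ne' h2⟩
    obtain ⟨c, hc⟩ := exists_conj_f hk
    apply Good.of_conj c
    obtain ⟨g', hg'⟩ : ∃ g', g' = c * g * c⁻¹ := ⟨_, rfl⟩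
    have hk' : g' ^ k = v ^ 2 := by rw [hg', conj_pow, hc, v_sq]
    have h1' : g' ≠ 1 := fun e => h1 (by
      have : g = c⁻¹ * g' * c := by rw [hg']; group
      rw [this, e]; group)
    have h3' : ¬ 3 ∣ orderOf g' := by rwa [hg', order_conj]
    have c3' : ¬ 3 ∣ Nat.card (centralizer ({g'} : Set ON)) := by rwa [hg', card_conj]
    have c11' : ¬ 11 ∣ Nat.card (centralizer ({g'} : Set ON)) := by rwa [hg', card_conj]
    have c19' : ¬ 19 ∣ Nat.card (centralizer ({g'} : Set ON)) := by rwa [hg', card_conj]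
    have c31' : ¬ 31 ∣ Nat.card (centralizer ({g'} : Set ON)) := by rwa [hg', card_conj]
    rw [← hg']
    have hcf : ∀ u : ON, u * g' = g' * u → u * v ^ 2 = v ^ 2 * u := by
      intro u hu
      rw [← hk']
      exact ((show Commute u g' from hu).pow_right k).eq
    by_cases c5 : 5 ∣ Nat.card (centralizer ({g'} : Set ON))
    · obtain ⟨u, hu, hug⟩ := exists_comm (by norm_num : Nat.Prime 5) c5
      have huK : u ∈ K0 := mem_K0.2 (by rw [← v_sq]; exact hcf u hug)
      have huJ : u ∈ J := mem_J_of_odd huK (by decide : Odd 5) (by rw [← hu, pow_orderOf_eq_one])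
      exact good_loc (loc_five hu huJ) (by norm_num) hug.symm (hcf g' rfl) hk' h1' h3'
    by_cases c7 : 7 ∣ Nat.card (centralizer ({g'} : Set ON))
    · obtain ⟨u, hu, hug⟩ := exists_comm (by norm_num : Nat.Prime 7) c7
      have huK : u ∈ K0 := mem_K0.2 (by rw [← v_sq]; exact hcf u hug)
      have huJ : u ∈ J := mem_J_of_odd huK (by decide : Odd 7) (by rw [← hu, pow_orderOf_eq_one])
      exact good_loc (loc_seven hu huJ) (by norm_num) hug.symm (hcf g' rfl) hk' h1' h3'
    obtain ⟨a, d, ha, -, hcard⟩ := card_shape c3' c5 c11' c19' c31'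
    have hd0 : d = 0 := by
      by_contra hd
      apply c7
      rw [hcard]
      exact (dvd_pow_self 7 hd).mul_left _
    apply good_small
    rw [hcard, hd0, pow_zero, mul_one]
    exact (Nat.pow_le_pow_right (by norm_num) ha).trans (by norm_num)
  · -- odd order
    by_cases c5 : 5 ∣ Nat.card (centralizer ({g} : Set ON))
    · obtain ⟨u, hu, hug⟩ := exists_comm (by norm_num : Nat.Prime 5) c5
      have h5 := dvd_cent hug.symm
      rw [card_cent_five hu] at h5
      have h6 : orderOf g ∣ 5 := by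
        have h7 : Nat.Coprime (orderOf g) (2 ^ 2 * 3 ^ 2) :=
          Nat.Coprime.mul_right (((Nat.Prime.coprime_iff_not_dvd Nat.prime_two).2 h2).symm.pow_right 2)
            (((Nat.Prime.coprime_iff_not_dvd Nat.prime_three).2 h3).symm.pow_right 2)
        exact h7.dvd_of_dvd_mul_left (by rw [show 2 ^ 2 * 3 ^ 2 * 5 = 180 by norm_num]; exact h5)
      rcases (Nat.dvd_prime (by norm_num)).1 h6 with h7 | h7
      · exact absurd (orderOf_eq_one_iff.1 h7) h1
      · apply good_small
        rw [card_cent_five h7]; norm_num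
    obtain ⟨a, d, ha, hd, hcard⟩ := card_shape c3 c5 c11 c19 c31
    by_cases ha0 : a = 0
    · apply good_small
      rw [hcard, ha0, pow_zero, one_mul]
      exact (Nat.pow_le_pow_right (by norm_num) hd).trans (by norm_num)
    · have c2 : 2 ∣ Nat.card (centralizer ({g} : Set ON)) := by
        rw [hcard]
        exact (dvd_pow_self 2 ha0).mul_right _
      obtain ⟨t, ht, htg⟩ := exists_comm Nat.prime_two c2
      obtain ⟨c, hc⟩ := exists_conj_f ht
      apply Good.of_conj c
      have hgK : c * g * c⁻¹ ∈ K0 := by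
        rw [mem_K0, ← hc]
        exact conj_comm htg.symm
      refine good_seven ?_ hgK
      rw [order_conj]
      have h5 : orderOf g ∣ 2 ^ a * 7 ^ d := by rw [← hcard]; exact dvd_cent rfl
      have h6 : orderOf g ∣ 7 ^ d :=
        Nat.Coprime.dvd_of_dvd_mul_left (((Nat.Prime.coprime_iff_not_dvd Nat.prime_two).2 h2).symm.pow_right a) h5
      have h7 : orderOf g ∣ 161280 := by
        rw [← order_conj c g, ← card_K0]
        have := orderOf_dvd_natCard (⟨c * g * c⁻¹, hgK⟩ : K0)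
        rwa [← orderOf_coe] at this
      have h8 : orderOf g ∣ Nat.gcd (7 ^ 3) 161280 := Nat.dvd_gcd (h6.trans (pow_dvd_pow 7 hd)) h7
      rw [show Nat.gcd (7 ^ 3) 161280 = 7 by norm_num] at h8
      rcases (Nat.dvd_prime (by norm_num)).1 h8 with h9 | h9
      · exact absurd (orderOf_eq_one_iff.1 h9) h1
      · exact h9

end Cfsg.Agent.H890.QON
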