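import Cfsg.Agent.H890.QON.Cases
import Cfsg.Agent.H253.QON.Fix
import Cfsg.Agent.H6.QO.Frame
import Cfsg.Agent.S2052

/-!
# S2491, S2492: the row of the O'Nan group (helper890)

`rowA_on` : every element of every perfect central extension of `O'N` is a commutator. In a triple cover the elements of
order divisible by three are conjugate to their central multiples (`H253.QON.fixed`), and every `g ≠ 1` of `O'N` of order
prime to three is a commutator whose first member has order divisible by three (`good`).
-/

set_option autoImplicit false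

namespace Cfsg.Agent.H890.QON

open Subgroup Cfsg Cfsg.Agent.H51.Mult Cfsg.Agent.H777.Ore Cfsg.Agent.H6.QO
open Cfsg.Spor (ON)

universe u

/-- the elements of order divisible by three of a triple cover are conjugate to their central multiples -/
def Fixed : Prop := ∀ (L : Type) [Group L] [Finite L] (π : L →* ON), PCE π → Nat.card π.ker = 3 →
  ∀ g : L, 3 ∣ orderOf (π g) → ∀ ζ : L, π ζ = 1 → IsConj g (g * ζ)

theorem rowA_of_fixed (hF : Fixed) : RowA ON := by
  intro L _ _ π hπ
  have hcard : Nat.card π.ker ∣ 3 := (H68.Bounds.ker_of_hasCyclic S2052.result hπ).2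
  rcases (Nat.dvd_prime Nat.prime_three).1 hcard with h1 | h3
  · -- `π` is an isomorphism
    have hinj : Function.Injective π := by
      rw [← MonoidHom.ker_eq_bot_iff]
      exact Subgroup.eq_bot_of_card_eq _ h1
    exact H535.Ore.ON.allC_on.congr (MulEquiv.ofBijective π ⟨hinj, hπ.surj⟩).symm
  · have hfix := hF L π hπ h3
    intro g
    by_cases hg : π g = 1
    · -- central elements
      obtain ⟨z, hz, -, -⟩ := H210.On7.exists_three
      obtain ⟨z', rfl⟩ := hπ.surj z
      obtain ⟨c, hc⟩ := isConj_iff.1 (hfix z' (by rw [hz]) g hg)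
      have hcen := hπ.comm hg
      refine ⟨c, z', ?_⟩
      rw [hc, mul_assoc, hcen, mul_inv_cancel_left]
    by_cases h : 3 ∣ orderOf (π g)
    · exact isC_of_conj_all hπ.surj (H535.Ore.ON.allC_on (π g)) (hfix g h)
    · obtain ⟨x, k, hx, hxk⟩ := good hg h
      obtain ⟨x', rfl⟩ := hπ.surj x
      exact isC_of_pair hπ.surj hπ.cen hxk (hfix x' hx)

theorem rowA_ON : RowA ON :=
  rowA_of_fixed fun _ _ _ _ hπ h3 _ hg => H253.QON.fixed hπ h3 hg

/-- **S2491, S2492: the row of O'N.** -/
theorem rowA_on {S : Type u} [Group S] (h : Spor.IsoON S) : RowA S := by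
  obtain ⟨e⟩ := h
  exact rowA_ON.congr e.symm

end Cfsg.Agent.H890.QON
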