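import Cfsg.Agent.H535.Ore.ON

/-!
# The O'Nan group: products of two elements of order 15 (helper890)

`Δ.x` of order 15, `|C(Δ.x)| = 45`. `prd15` : every `g` with `|C(g)| ≤ 512` is a product of a conjugate of `Δ.x` and a
conjugate of `Δ.x⁻¹`.
-/

set_option autoImplicit false
set_option linter.unusedSectionVars false

open Cfsg Subgroup
open scoped ComplexConjugate

namespace Cfsg.Agent.H890.QON

open Cfsg.Agent.Characters.Core
open Cfsg.Agent.H653.Sieve (IsCol deg deg_cast csum csum_eq_erase one_of_deg allDiv facProd)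
open Cfsg.Agent.H653.Sys
open Cfsg.Agent.H210.On7 (Data rt rt_sq)
open Cfsg.Agent.H894.J4Two (apply_eq_of_isConj exists_col_rat orderOf_of_card orderOf_eq_of_isConj)
open Cfsg.Agent.H535.K4.ON
open Cfsg.Agent.H535.Ore.ON
open Cfsg.Agent.H65.Ore (Prd)

universe u

variable {G : Type u} [Group G] [Finite G]

/-- the condition on the degree and the sum of the two values at the elements of order 15 -/
def condU (d : ℕ) (ws : List ℤ) : Bool :=
  let u := ws.getD 5 0
  Nat.ble (341 * u.natAbs) (6 * d) && (Nat.beq (u.natAbs % 2) 0 || Nat.ble 46872 d)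

/-- the degrees -/
def chk15 (d : ℕ) : Bool :=
  Nat.ble NN (d * d) || Nat.beq d 1 || Nat.beq d 32 || Nat.beq d 837 || Nat.beq d 1178 || allV Gs d (condU d)

theorem chk15_all : allDiv NN chk15 facs 1 = true := by decide +kernel

/-- the columns, with the values at the elements of order 15 -/
theorem exists_pieces' [IsSimpleGroup G] (hG : ¬ IsMulCommutative G) [Fintype (IrrCharacter G)] (Δ : Data G) :
    ∃ (A B C T F u v : IrrCharacter G → ℤ), FamOK (fun g : G => orderOf g) (primeFam 31 wl31 62 2 true 2) [A] ∧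
      FamOK (fun g : G => orderOf g) (primeFam 19 wl19 57 3 true 3) [B] ∧
      FamOK (fun g : G => orderOf g) (primeFam 11 wl11 11 0 false 1) [C] ∧
      (∀ χ : IrrCharacter G, (χ : G → ℂ) Δ.y = F χ) ∧ (∀ χ : IrrCharacter G, [T χ, F χ, u χ] ∈ fam3.vals (deg χ)) ∧
      (∀ χ : IrrCharacter G, (χ : G → ℂ) Δ.x + (χ : G → ℂ) (Δ.x ^ 2) = u χ) ∧
      (∀ χ : IrrCharacter G, (χ : G → ℂ) Δ.x - (χ : G → ℂ) (Δ.x ^ 2) = v χ * rt) ∧
      (∀ χ, (3 : ℤ) ∣ v χ) ∧ (∀ χ, (2 : ℤ) ∣ u χ + v χ) ∧ ∑ χ, u χ * u χ = 90 ∧ ∑ χ, v χ * v χ = 18 := by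
  classical
  have hN : Nat.card G = NN := Δ.card
  obtain ⟨x31, o31, c31⟩ := exists_elt (G := G) (p := 31) (by norm_num) (by rw [Δ.card]; norm_num) Δ.h31
  obtain ⟨x19, o19, c19⟩ := exists_elt (G := G) (p := 19) (by norm_num) (by rw [Δ.card]; norm_num) Δ.h19
  obtain ⟨x11, o11, c11⟩ := exists_elt (G := G) (p := 11) (by norm_num) (by rw [Δ.card]; norm_num) Δ.h11
  obtain ⟨A, hA⟩ := primeFam_ok hG hN o31 (k := 1) (by rw [c31]) 15 2 wl31 2 true num31 62 2 (by norm_num) (by norm_num)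
  obtain ⟨B, hB⟩ := primeFam_ok hG hN o19 (k := 1) (by rw [c19]) 6 3 wl19 3 true num19 57 3 (by norm_num) (by norm_num)
  obtain ⟨C, hC⟩ := primeFam_ok hG hN o11 (k := 1) (by rw [c11]) 10 1 wl11 0 false num11 11 1 (by norm_num) (by norm_num)
  have hz : ∀ w ∈ zpowers Δ.z, w ≠ 1 → IsConj w Δ.z := fun w hw h1 =>
    Δ.c3 w (orderOf_of_card Nat.prime_three (by rw [Nat.card_zpowers, Δ.oz]) hw h1)
  obtain ⟨T, cT, vT, qT⟩ := exists_col_rat Nat.prime_three Δ.oz hz
  obtain ⟨F, cF, vF, qF⟩ := exists_col_rat Nat.prime_five Δ.oy Δ.hy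
  have dF : ∀ χ : IrrCharacter G, (5 : ℤ) ∣ (deg χ : ℤ) + 4 * F χ := fun χ => by
    have h := cF.dvd χ
    rw [Nat.card_zpowers, Δ.oy] at h
    exact_mod_cast h
  obtain ⟨u, v, hu, hv, v3, uv2, d5, d9, qu, qv, -⟩ := Δ.exists_uv vT vF dF
  -- the pairs for the prime 5
  obtain ⟨P, W, hP, -, hcol, hok⟩ := H653.Sieve.exists_col hG hN Δ.oy (k := 36) (by rw [Δ.cy]) 4 1 wl5 0 false num5
  have hWF : ∀ χ : IrrCharacter G, W χ = F χ := by
    intro χ
    have hpg : IsPGroup 5 (zpowers Δ.y) := IsPGroup.of_card (n := 1) (by rw [Nat.card_zpowers, Δ.oy, pow_one])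
    obtain ⟨Q, hQ⟩ := hpg.exists_le_sylow
    have hQc : Nat.card Q = 5 := (Nat.card_congr (Q.equiv P).toEquiv).trans hP
    have hQy : (Q : Subgroup G) = zpowers Δ.y := by
      symm
      apply Subgroup.eq_of_le_of_card_ge hQ
      rw [Nat.card_zpowers, Δ.oy]
      exact hQc.le
    obtain ⟨g, hg⟩ := MulAction.exists_smul_eq G P Q
    have hconj : ∀ w ∈ (P : Subgroup G), w ≠ 1 → IsConj w Δ.y := by
      intro w hw h1
      have h2 : g * w * g⁻¹ ∈ zpowers Δ.y := by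
        rw [← hQy, ← hg]
        rw [Sylow.coe_subgroup_smul]
        exact Subgroup.smul_mem_pointwise_smul w (MulAut.conj g) (P : Subgroup G) hw
      have h3 := Δ.hy _ h2 (fun h => h1 (by
        have h4 : g * w = g := mul_inv_eq_one.1 h
        exact mul_eq_left.1 h4))
      exact (isConj_iff.2 ⟨g, rfl⟩).trans h3
    have h1 := hcol χ
    have := Fintype.ofFinite (P : Subgroup G)
    rw [csum_eq_erase, Finset.sum_congr rfl (g := fun _ => (F χ : ℂ)), Finset.sum_const,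
      Finset.card_erase_of_mem (Finset.mem_univ _), Finset.card_univ, ← Nat.card_eq_fintype_card,
      show Nat.card (P : Subgroup G) = 5 from hP] at h1
    · simp only [nsmul_eq_mul] at h1
      have h2 : ((4 * W χ : ℤ) : ℂ) = ((4 * F χ : ℤ) : ℂ) := by
        push_cast
        push_cast at h1
        linear_combination h1
      have h3 : 4 * W χ = 4 * F χ := by exact_mod_cast h2
      omega
    · intro b hb
      rw [← vF]
      exact apply_eq_of_isConj χ.2 (hconj b b.2 fun e => (Finset.mem_erase.1 hb).1 (Subtype.ext e))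
  have hmF : ∀ χ : IrrCharacter G, (deg χ % 5, F χ) ∈ wl5 := by
    intro χ
    have h1 := hok.mem χ
    rwa [hWF χ] at h1
  have hmem : ∀ χ : IrrCharacter G, [T χ, F χ, u χ] ∈ fam3.vals (deg χ) := by
    intro χ
    obtain ⟨m, hm⟩ : ∃ m : ℕ, (deg χ : ℤ) + 80 * T χ = 81 * m := by
      have := Fintype.ofFinite Δ.E
      obtain ⟨m, hm⟩ := SmallSimple.TheoremBCor.exists_sum_eq (isIrr_isCharacter χ.2) Δ.E
      rw [← Finset.add_sum_erase _ _ (Finset.mem_univ (1 : Δ.E)), Subgroup.coe_one, deg_cast,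
        Finset.sum_congr rfl (g := fun _ => (T χ : ℂ)), Finset.sum_const,
        Finset.card_erase_of_mem (Finset.mem_univ _), Finset.card_univ, ← Nat.card_eq_fintype_card, Δ.cardE] at hm
      · refine ⟨m, ?_⟩
        have h6 : (((deg χ : ℤ) + 80 * T χ : ℤ) : ℂ) = ((81 * m : ℤ) : ℂ) := by
          push_cast
          simp only [nsmul_eq_mul] at hm
          push_cast at hm
          linear_combination hm
        exact_mod_cast h6
      · intro b hb
        rw [← vT]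
        exact apply_eq_of_isConj χ.2 (Δ.c3 b (Δ.expE b b.2 fun e => (Finset.mem_erase.1 hb).1 (Subtype.ext e)))
    have hTs : T χ * T χ ≤ 3240 := by
      have h1 := Finset.single_le_sum (f := fun χ : IrrCharacter G => T χ * T χ) (fun χ _ => mul_self_nonneg _)
        (Finset.mem_univ χ)
      have h2 : ∑ χ : IrrCharacter G, T χ * T χ = 3240 := by rw [qT, Δ.cz]; norm_num
      rw [h2] at h1
      exact h1
    have hus : u χ * u χ ≤ 90 := by
      have h1 := Finset.single_le_sum (f := fun χ : IrrCharacter G => u χ * u χ) (fun χ _ => mul_self_nonneg _)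
        (Finset.mem_univ χ)
      rw [qu] at h1
      exact h1
    exact mem_fam3 hTs hus (hmF χ) (by rw [hm]; positivity) ⟨m, hm⟩ (d5 χ) (d9 χ)
  exact ⟨A, B, C, T, F, u, v, hA, hB, hC, vF, hmem, hu, hv, v3, uv2, qu, qv⟩

/-- **the values at an element of order 15** -/
theorem exists_uv [IsSimpleGroup G] (hG : ¬ IsMulCommutative G) [Fintype (IrrCharacter G)] (Δ : Data G) :
    ∃ (u v : IrrCharacter G → ℤ),
      (∀ χ : IrrCharacter G, (χ : G → ℂ) Δ.x + (χ : G → ℂ) (Δ.x ^ 2) = u χ) ∧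
      (∀ χ : IrrCharacter G, 2 * (χ : G → ℂ) Δ.x = u χ + v χ * rt) ∧
      (∀ χ, (3 : ℤ) ∣ v χ) ∧ (∀ χ, (2 : ℤ) ∣ u χ + v χ) ∧ ∑ χ, u χ * u χ = 90 ∧ ∑ χ, v χ * v χ = 18 ∧
      ∀ χ : IrrCharacter G, (χ : G → ℂ) ≠ 1 → 341 * (u χ).natAbs ≤ 6 * deg χ ∧
        ((u χ).natAbs % 2 = 0 ∨ 46872 ≤ deg χ) := by
  classical
  obtain ⟨A, B, C, T, F, u, v, hA, hB, hC, vF, hmem, hu, hv, v3, uv2, qu, qv⟩ := exists_pieces' hG Δ
  refine ⟨u, v, hu, fun χ => ?_, v3, uv2, qu, qv, fun χ h1 => ?_⟩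
  · have h2 := hu χ
    have h3 := hv χ
    linear_combination h2 + h3
  -- the degree
  have hN : Nat.card G = NN := Δ.card
  have hne1 : deg χ ≠ 1 := fun h => h1 (one_of_deg (not_prime Δ) χ h)
  have hdvd : deg χ ∣ H653.Sieve.facProd facs := by
    rw [facs_prod, ← hN]
    exact Blocks.Knorr.charDegree_dvd χ.2
  have hlt : deg χ * deg χ < NN := by
    have hsq : ∑ χ : IrrCharacter G, deg χ * deg χ = NN := by
      have h3 := SmallSimple.DegreeData.sum_sq (G := G)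
      rw [← hN, ← h3]
      exact Finset.sum_congr rfl fun χ _ => by unfold deg; ring
    have hχ₁ : ∃ χ₁ : IrrCharacter G, (χ₁ : G → ℂ) = 1 := ⟨⟨1, isIrr_one⟩, rfl⟩
    obtain ⟨χ₁, hχ₁⟩ := hχ₁
    have hne : χ ≠ χ₁ := fun h => h1 (by rw [h, hχ₁])
    have hd1 : deg χ₁ = 1 := by
      unfold deg charDegree
      rw [hχ₁]
      simp
    have h4 : ∑ χ' ∈ ({χ, χ₁} : Finset (IrrCharacter G)), deg χ' * deg χ' ≤
        ∑ χ' : IrrCharacter G, deg χ' * deg χ' :=
      Finset.sum_le_sum_of_subset (Finset.subset_univ _)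
    rw [Finset.sum_pair hne, hsq, hd1] at h4
    omega
  have hpr : ∀ pa ∈ facs, pa.1.Prime := by
    intro pa hpa
    have := List.all_eq_true.1 facs_prime pa hpa
    simpa using this
  have h3 := H653.Sieve.allDiv_spec hpr chk15_all (deg χ) hdvd (by rwa [one_mul])
  rw [one_mul, chk15] at h3
  simp only [Bool.or_eq_true] at h3
  -- the filtered family
  have hvals : [T χ, F χ, u χ] ∈ fam3i.vals (deg χ) := by
    refine List.mem_filter.2 ⟨hmem χ, ?_⟩
    have h5 := SmallSimple.InvolColumn.dvd_index_mul χ.2 (vF χ)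
    have hi : (centralizer ({Δ.y} : Set G)).index = 2560086144 := by
      have h2 := (centralizer ({Δ.y} : Set G)).card_mul_index
      rw [Δ.cy, Δ.card] at h2
      omega
    rw [hi] at h5
    rw [Nat.beq_eq]
    apply Nat.mod_eq_zero_of_dvd
    have h2 : (deg χ : ℤ).natAbs ∣ (((2560086144 : ℕ) : ℤ) * F χ).natAbs := Int.natAbs_dvd_natAbs.2 h5
    rw [Int.natAbs_natCast, Int.natAbs_mul, Int.natAbs_natCast, mul_comm] at h2
    exact h2
  rcases h3 with ((((h3 | h3) | h3) | h3) | h3) | h3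
  · exact absurd (Nat.le_of_ble_eq_true h3) (by omega)
  · exact absurd (Nat.eq_of_beq_eq_true h3) hne1
  · exact absurd (Nat.eq_of_beq_eq_true h3) (no_deg hG Δ 32 a_32 m_32 (by norm_num [m_32]) cs_32 cert_32 all_32 χ)
  · exact absurd (Nat.eq_of_beq_eq_true h3) (no_deg hG Δ 837 a_837 m_837 (by norm_num [m_837]) cs_837 cert_837 all_837 χ)
  · exact absurd (Nat.eq_of_beq_eq_true h3)
      (no_deg hG Δ 1178 a_1178 m_1178 (by norm_num [m_1178]) cs_1178 cert_1178 all_1178 χ)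
  · -- the tuple of the values
    have h4 : condU (deg χ) ([A χ] ++ ([B χ] ++ ([C χ] ++ ([T χ, F χ, u χ] ++ [])))) = true := by
      have e1 := List.all_eq_true.1 h3 _ (hA.mem χ)
      have e2 := List.all_eq_true.1 e1 _ (hB.mem χ)
      have e3 := List.all_eq_true.1 e2 _ (hC.mem χ)
      exact List.all_eq_true.1 e3 _ hvals
    have h5 : (Nat.ble (341 * (u χ).natAbs) (6 * deg χ) && (Nat.beq ((u χ).natAbs % 2) 0 || Nat.ble 46872 (deg χ))) =
        true := h4
    rw [Bool.and_eq_true, Bool.or_eq_true] at h5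
    exact ⟨Nat.le_of_ble_eq_true h5.1, h5.2.imp Nat.eq_of_beq_eq_true Nat.le_of_ble_eq_true⟩

theorem norm_rt : ‖rt‖ ≤ 9 / 4 := by
  have h1 : ‖rt‖ * ‖rt‖ = 5 := by rw [← norm_mul, rt_sq]; norm_num
  by_contra h
  push Not at h
  nlinarith [norm_nonneg rt]

/-- one term -/
theorem term_le {a D u v : ℝ} (ha : 0 ≤ a) (hD : 0 < D) (h0 : v = 0 → 2 * a = |u|) (hu : 341 * |u| ≤ 6 * D)
    (h1 : v ≠ 0 → a ≤ 8 ∧ 9 ≤ v ^ 2 ∧ 46872 ≤ D) : (a * a / D) ^ 2 ≤ 9 / 465124 * u ^ 2 + v ^ 2 / 1000000 := by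
  by_cases hv : v = 0
  · have h2 := h0 hv
    have h3 : u ^ 2 = 4 * a ^ 2 := by rw [← sq_abs u, ← h2]; ring
    have h4 : a / D ≤ 3 / 341 := by
      rw [div_le_div_iff₀ hD (by norm_num)]
      rw [← h2] at hu
      linarith
    have h5 : (a * a / D) ^ 2 = a ^ 2 * (a / D) ^ 2 := by ring
    have h6 : (a / D) ^ 2 ≤ (3 / 341) ^ 2 := by
      have : 0 ≤ a / D := by positivity
      gcongr
    rw [h5, h3, hv]
    have h7 : a ^ 2 * (a / D) ^ 2 ≤ a ^ 2 * (3 / 341) ^ 2 := by gcongr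
    linarith
  · obtain ⟨h2, h3, h4⟩ := h1 hv
    have h5 : a * a / D ≤ 8 * 8 / 46872 := by gcongr
    have h6 : (a * a / D) ^ 2 ≤ (8 * 8 / 46872) ^ 2 := by
      have : 0 ≤ a * a / D := by positivity
      gcongr
    have h7 : (8 * 8 / 46872 : ℝ) ^ 2 ≤ 9 / 1000000 := by norm_num
    have h8 : (9 : ℝ) / 1000000 ≤ v ^ 2 / 1000000 := by gcongr
    have h9 : 0 ≤ 9 / 465124 * u ^ 2 := by positivity
    linarith

/-- **Products of two elements of order 15.** -/
theorem prd15 [IsSimpleGroup G] (hG : ¬ IsMulCommutative G) (Δ : Data G) {g : G}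
    (hg : Nat.card (centralizer ({g} : Set G)) ≤ 512) : Prd Δ.x Δ.x⁻¹ g := by
  classical
  have := finite_irr (G := G)
  have := Fintype.ofFinite (IrrCharacter G)
  obtain ⟨u, v, hu, hx, v3, uv2, qu, qv, hall⟩ := exists_uv hG Δ
  apply H65.Ore.prd_of_weighted
  rw [← Finset.add_sum_erase Finset.univ _ (Finset.mem_univ (H65.Ore.one1 G))]
  simp only [H65.Ore.one1_apply, norm_one, mul_one, div_one, one_pow, add_sub_cancel_left]
  have hc : (Nat.card (centralizer ({g} : Set G)) : ℝ) - 1 ≤ 511 := by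
    have : (Nat.card (centralizer ({g} : Set G)) : ℝ) ≤ 512 := by exact_mod_cast hg
    linarith
  have hc0 : (0 : ℝ) ≤ (Nat.card (centralizer ({g} : Set G)) : ℝ) - 1 := by
    have h1 : 1 ≤ Nat.card (centralizer ({g} : Set G)) := Nat.card_pos
    have : (1 : ℝ) ≤ (Nat.card (centralizer ({g} : Set G)) : ℝ) := by exact_mod_cast h1
    linarith
  have hterm : ∀ χ ∈ Finset.univ.erase (H65.Ore.one1 G),
      (‖(χ : G → ℂ) Δ.x‖ * ‖(χ : G → ℂ) Δ.x⁻¹‖ / ‖(χ : G → ℂ) 1‖) ^ 2 ≤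
        9 / 465124 * (u χ : ℝ) ^ 2 + (v χ : ℝ) ^ 2 / 1000000 := by
    intro χ hχ
    have hne : (χ : G → ℂ) ≠ 1 := H65.Ore.coe_ne_one (Finset.ne_of_mem_erase hχ)
    obtain ⟨h1, h2⟩ := hall χ hne
    have h3 : ‖(χ : G → ℂ) Δ.x⁻¹‖ = ‖(χ : G → ℂ) Δ.x‖ := by
      rw [isCharacter_apply_inv (isIrr_isCharacter χ.2), Complex.norm_conj]
    have h4 : ‖(χ : G → ℂ) 1‖ = (deg χ : ℝ) := by
      rw [deg_cast]; simp
    have hd0 : 0 < deg χ := by
      rcases Nat.eq_zero_or_pos (deg χ) with h | h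
      · exact absurd h (H65.Ore.charDegree_ne_zero χ.2)
      · exact h
    rw [h3, h4]
    have h5 := hx χ
    refine term_le (norm_nonneg _) (by exact_mod_cast hd0) (fun h => ?_) ?_ (fun h => ?_)
    · have h6 : v χ = 0 := by exact_mod_cast h
      rw [h6] at h5
      have h7 : 2 * (χ : G → ℂ) Δ.x = u χ := by rw [h5]; simp
      have h8 := congrArg norm h7
      rw [norm_mul] at h8
      simpa using h8
    · have h6 : ((341 * (u χ).natAbs : ℕ) : ℝ) ≤ ((6 * deg χ : ℕ) : ℝ) := by exact_mod_cast h1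
      push_cast at h6
      rw [Nat.cast_natAbs] at h6
      push_cast at h6
      exact h6
    · have h6 : v χ ≠ 0 := by exact_mod_cast h
      have hv2 : v χ * v χ ≤ 18 := by
        rw [← qv]
        exact Finset.single_le_sum (f := fun χ : IrrCharacter G => v χ * v χ) (fun χ _ => mul_self_nonneg _)
          (Finset.mem_univ χ)
      have hu2 : u χ * u χ ≤ 90 := by
        rw [← qu]
        exact Finset.single_le_sum (f := fun χ : IrrCharacter G => u χ * u χ) (fun χ _ => mul_self_nonneg _)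
          (Finset.mem_univ χ)
      have bv : -4 ≤ v χ ∧ v χ ≤ 4 := by constructor <;> nlinarith
      have bu : -9 ≤ u χ ∧ u χ ≤ 9 := by constructor <;> nlinarith
      have hv3 := v3 χ
      have huv := uv2 χ
      have h7 : v χ = 3 ∨ v χ = -3 := by omega
      have h8 : |(v χ : ℝ)| = 3 := by
        rcases h7 with h | h <;> rw [h] <;> norm_num
      have h9 : |(u χ : ℝ)| ≤ 9 := by
        rw [abs_le]
        constructor
        · exact_mod_cast bu.1
        · exact_mod_cast bu.2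
      refine ⟨?_, ?_, ?_⟩
      · have h10 := congrArg norm h5
        rw [norm_mul] at h10
        have h11 := norm_add_le (u χ : ℂ) (v χ * rt)
        rw [norm_mul, Complex.norm_intCast, Complex.norm_intCast, h8] at h11
        have h12 : ‖(2 : ℂ)‖ = 2 := by norm_num
        rw [h12] at h10
        have h13 := norm_rt
        linarith
      · have h10 : (v χ : ℝ) ^ 2 = 9 := by
          rw [← sq_abs, h8]; norm_num
        rw [h10]
      · have h10 : (u χ).natAbs % 2 ≠ 0 := by omega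
        have h11 := h2.resolve_left h10
        exact_mod_cast h11
  have hsum := Finset.sum_le_sum hterm
  rw [Finset.sum_add_distrib, ← Finset.mul_sum, ← Finset.sum_div] at hsum
  have hu1 : u (H65.Ore.one1 G) = 2 := by
    have h1 := hu (H65.Ore.one1 G)
    rw [H65.Ore.one1_apply, H65.Ore.one1_apply] at h1
    have h2 : ((2 : ℤ) : ℂ) = ((u (H65.Ore.one1 G) : ℤ) : ℂ) := by
      rw [← h1]; push_cast; norm_num
    exact_mod_cast h2.symm
  have hu86 : ∑ χ ∈ Finset.univ.erase (H65.Ore.one1 G), (u χ : ℝ) ^ 2 = 86 := by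
    have h1 : ∑ χ : IrrCharacter G, (u χ : ℝ) ^ 2 = 90 := by
      have h2 : ((∑ χ : IrrCharacter G, u χ * u χ : ℤ) : ℝ) = ((90 : ℤ) : ℝ) := by rw [qu]
      push_cast at h2
      rw [← h2]
      exact Finset.sum_congr rfl fun χ _ => by ring
    rw [← Finset.add_sum_erase Finset.univ _ (Finset.mem_univ (H65.Ore.one1 G)), hu1] at h1
    push_cast at h1
    linarith
  have hv18 : ∑ χ ∈ Finset.univ.erase (H65.Ore.one1 G), (v χ : ℝ) ^ 2 ≤ 18 := by
    have h1 : ∑ χ : IrrCharacter G, (v χ : ℝ) ^ 2 = 18 := by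
      have h2 : ((∑ χ : IrrCharacter G, v χ * v χ : ℤ) : ℝ) = ((18 : ℤ) : ℝ) := by rw [qv]
      push_cast at h2
      rw [← h2]
      exact Finset.sum_congr rfl fun χ _ => by ring
    rw [← h1]
    exact Finset.sum_le_sum_of_subset_of_nonneg (Finset.subset_univ _) fun _ _ _ => sq_nonneg _
  rw [hu86] at hsum
  have h17 : ∑ χ ∈ Finset.univ.erase (H65.Ore.one1 G),
      (‖(χ : G → ℂ) Δ.x‖ * ‖(χ : G → ℂ) Δ.x⁻¹‖ / ‖(χ : G → ℂ) 1‖) ^ 2 ≤ 17 / 10000 := by
    refine hsum.trans ?_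
    have : (∑ χ ∈ Finset.univ.erase (H65.Ore.one1 G), (v χ : ℝ) ^ 2) / 1000000 ≤ 18 / 1000000 := by gcongr
    linarith
  have h0 : 0 ≤ ∑ χ ∈ Finset.univ.erase (H65.Ore.one1 G),
      (‖(χ : G → ℂ) Δ.x‖ * ‖(χ : G → ℂ) Δ.x⁻¹‖ / ‖(χ : G → ℂ) 1‖) ^ 2 := Finset.sum_nonneg fun _ _ => sq_nonneg _
  nlinarith

end Cfsg.Agent.H890.QON
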